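import Cfsg.Agent.H835.AN.Deg
import Cfsg.Agent.H89.AN.AOneTwo

/-!
# S4766, A7: the character degrees of `A_n`, `5 ≤ n ≤ 19` (helper835)
-/

set_option autoImplicit false

namespace Cfsg.Agent.H835.AN

open Cfsg.Agent.H691.AN

theorem a1St : A1St := fun hn _ hl _ hd => Cfsg.Agent.H89.AN.a1_mem hn hl hd

theorem a2St : A2St := fun hn _ hd => Cfsg.Agent.H89.AN.a2_part hn hd

theorem mem_D_iff {n : ℕ} (hn : 5 ≤ n) (hn' : n ≤ 19) {d : ℕ} : d ∈ D n ↔ d ∈ degA n := mem_D_iff_of a1St a2St hn hn'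

theorem le_maxA {n : ℕ} (hn : 5 ≤ n) (hn' : n ≤ 19) {d : ℕ} (hd : d ∈ D n) : d ≤ maxA n := le_maxA_of a1St a2St hn hn' hd

theorem maxA_mem {n : ℕ} (hn : 5 ≤ n) (hn' : n ≤ 19) : maxA n ∈ D n := maxA_mem_of a1St a2St hn hn'

end Cfsg.Agent.H835.AN
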